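import Cfsg.Agent.S2904

/-! # S3430/S4423: the primitive part of `Φ_n(a)` -/

set_option autoImplicit false

namespace Cfsg.Agent.Lib.Helper77.Feit

open Cfsg.Agent.S2904 Polynomial

theorem npA (a n r : ℕ) (ha : 1 < a) (hn : 0 < n) (hr : r.Prime)
    (h : r ∣ natPhi n a) (H : ∃ k, 0 < k ∧ k < n ∧ r ∣ a ^ k - 1) :
    ∃ k m, n = r ^ (k + 1) * m ∧ ¬ r ∣ m ∧ IsPrimitiveRoot (a : ZMod r) m := by
  obtain ⟨e, m, hm, hnm⟩ := Nat.exists_eq_pow_mul_and_not_dvd hn.ne' r hr.ne_one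
  have hprim := prim_root_of_dvd a r e m hr hm (hnm ▸ h)
  cases e with
  | zero =>
    exfalso
    simp at hnm
    subst hnm
    obtain ⟨k, hk0, hkn, hk⟩ := H
    rw [dvd_pow_sub_one_iff a r n k ha hprim] at hk
    exact absurd (Nat.le_of_dvd hk0 hk) (by omega)
  | succ k => exact ⟨k, m, hnm, hm, hprim⟩

theorem npB (a n r s : ℕ) (ha : 1 < a) (hn : 0 < n) (hr : r.Prime) (hs : s.Prime)
    (h1 : r ∣ natPhi n a) (h2 : s ∣ natPhi n a) (H1 : ∃ k, 0 < k ∧ k < n ∧ r ∣ a ^ k - 1)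
    (H2 : ∃ k, 0 < k ∧ k < n ∧ s ∣ a ^ k - 1) (hne : r ≠ s) : s < r := by
  obtain ⟨k, m, hnm, hm, hprim⟩ := npA a n r ha hn hr h1 H1
  obtain ⟨k', m', hnm', -, -⟩ := npA a n s ha hn hs h2 H2
  have hsn : s ∣ n := by rw [hnm']; exact Dvd.dvd.mul_right (dvd_pow_self s (by omega)) _
  have hsm : s ∣ m := by
    rw [hnm] at hsn
    exact (Nat.Coprime.dvd_of_dvd_mul_left
      (Nat.Coprime.pow_right _ ((Nat.coprime_primes hs hr).mpr hne.symm)) hsn)
  have hm0 : m ≠ 0 := by rintro rfl; simp at hnm; omega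
  have h3 := dvd_sub_one_of_prim a r m hr hm0 hprim
  have h4 : s ≤ m := Nat.le_of_dvd (Nat.pos_of_ne_zero hm0) hsm
  have h5 : m ≤ r - 1 := Nat.le_of_dvd (by have := hr.two_le; omega) h3
  have := hr.two_le
  omega

theorem npC (a n r : ℕ) (ha : 1 < a) (hn : 3 ≤ n) (hr : r.Prime)
    (h : r ∣ natPhi n a) (H : ∃ k, 0 < k ∧ k < n ∧ r ∣ a ^ k - 1) : ¬ r ^ 2 ∣ natPhi n a := by
  obtain ⟨k, m, hnm, hm, hprim⟩ := npA a n r ha (by omega) hr h H
  have hm0 : m ≠ 0 := by rintro rfl; simp at hnm; omega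
  set d := r ^ k * m with hd
  have hnd : n = d * r := by rw [hnm, hd]; ring
  have hdpos : 0 < d := Nat.mul_pos (pow_pos hr.pos _) (Nat.pos_of_ne_zero hm0)
  have hdprop : d ∈ n.properDivisors := by
    rw [Nat.mem_properDivisors]
    exact ⟨⟨r, hnd⟩, by rw [hnd]; nlinarith [hr.two_le]⟩
  have hdiv := mul_natPhi_dvd n d a ha hdprop
  set c := a ^ d with hc
  have hcn : a ^ n = c ^ r := by rw [hnd, pow_mul]
  rw [hcn] at hdiv
  have hc1 : 1 < c := Nat.one_lt_pow hdpos.ne' ha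
  have hrc : r ∣ c - 1 := (dvd_pow_sub_one_iff a r m d ha hprim).mpr ⟨r ^ k, by rw [hd]; ring⟩
  have hrc' : ¬ r ∣ c := by
    intro hh
    have h1 : r ∣ c - (c - 1) := Nat.dvd_sub hh hrc
    have h2 : c - (c - 1) = 1 := by omega
    rw [h2] at h1
    exact hr.one_lt.ne' (Nat.dvd_one.mp h1)
  intro hsq
  rcases hr.eq_two_or_odd' with rfl | hodd
  · have hm1 : m = 1 := Nat.dvd_one.mp (dvd_sub_one_of_prim a 2 m hr hm0 hprim)
    have hk : 1 ≤ k := by
      by_contra hk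
      have : k = 0 := by omega
      subst this
      rw [hm1] at hnm
      simp at hnm
      omega
    have hNc : natPhi n a ∣ c + 1 := by
      have h1 : c ^ 2 - 1 = (c - 1) * (c + 1) := by
        obtain ⟨c', hc'⟩ : ∃ c', c = c' + 1 := ⟨c - 1, by omega⟩
        rw [hc']
        simp
        ring_nf
        omega
      rw [h1] at hdiv
      exact Nat.dvd_of_mul_dvd_mul_left (by omega) hdiv
    have h4 : 4 ∣ c + 1 := by
      have : (2 : ℕ) ^ 2 = 4 := by norm_num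
      rw [this] at hsq
      exact hsq.trans hNc
    obtain ⟨b, hb⟩ : ∃ b, c = b ^ 2 := by
      refine ⟨a ^ (2 ^ (k - 1)), ?_⟩
      rw [hc, hd, hm1, ← pow_mul, mul_one]
      congr 1
      obtain ⟨k', rfl⟩ : ∃ k', k = k' + 1 := ⟨k - 1, by omega⟩
      simp [pow_succ]
    rw [hb] at h4
    have h5 : (b ^ 2 + 1) % 4 = 0 := Nat.mod_eq_zero_of_dvd h4
    have h6 : b % 4 = 0 ∨ b % 4 = 1 ∨ b % 4 = 2 ∨ b % 4 = 3 := by omega
    rcases h6 with h6 | h6 | h6 | h6 <;> simp [Nat.add_mod, Nat.pow_mod, h6] at h5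
  · haveI : Fact r.Prime := ⟨hr⟩
    have hlte := padicValNat.pow_sub_pow hodd hc1 hrc hrc' (n := r) hr.ne_zero
    rw [one_pow, padicValNat_self] at hlte
    have h1 : r ^ (padicValNat r (c - 1)) ∣ c - 1 := pow_padicValNat_dvd
    have h2 : r ^ (padicValNat r (c - 1)) * r ^ 2 ∣ c ^ r - 1 := (Nat.mul_dvd_mul h1 hsq).trans hdiv
    rw [← pow_add] at h2
    have hne : c ^ r - 1 ≠ 0 := by
      have : 1 < c ^ r := Nat.one_lt_pow hr.ne_zero hc1
      omega
    have h3 := (padicValNat_dvd_iff_le hne).mp h2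
    omega


/-- `p` is a primitive prime divisor of `a ^ n - 1`. -/
def IsPrim (a n p : ℕ) : Prop :=
  p.Prime ∧ p ∣ a ^ n - 1 ∧ ∀ i : ℕ, 1 ≤ i → i < n → ¬ p ∣ a ^ i - 1

/-- `Φ_n(a) = f * M`, `f = 1` or a prime divisor of `n`, all primes of `M` primitive. -/
theorem decomp (a n : ℕ) (ha : 1 < a) (hn : 3 ≤ n) :
    ∃ f M : ℕ, natPhi n a = f * M ∧ (f = 1 ∨ (f.Prime ∧ f ∣ n)) ∧
      ∀ p : ℕ, p.Prime → p ∣ M → IsPrim a n p := by
  by_cases hex : ∃ r : ℕ, r.Prime ∧ r ∣ natPhi n a ∧ ∃ k, 0 < k ∧ k < n ∧ r ∣ a ^ k - 1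
  · obtain ⟨r, hr, hrd, hrk⟩ := hex
    obtain ⟨M, hM⟩ := hrd
    refine ⟨r, M, hM, Or.inr ⟨hr, ?_⟩, ?_⟩
    · obtain ⟨k, m, hnm, -, -⟩ := npA a n r ha (by omega) hr ⟨M, hM⟩ hrk
      rw [hnm]
      exact Dvd.dvd.mul_right (dvd_pow_self r (by omega)) _
    · intro p hp hpM
      have hpd : p ∣ natPhi n a := hM ▸ Dvd.dvd.mul_left hpM r
      refine ⟨hp, hpd.trans (natPhi_dvd n a ha), ?_⟩
      intro i hi1 hin hpi
      have hpk : ∃ k, 0 < k ∧ k < n ∧ p ∣ a ^ k - 1 := ⟨i, hi1, hin, hpi⟩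
      by_cases hpr : p = r
      · subst hpr
        apply npC a n p ha hn hp ⟨M, hM⟩ hrk
        rw [hM, pow_two]
        exact Nat.mul_dvd_mul_left p hpM
      · have h1 := npB a n p r ha (by omega) hp hr hpd ⟨M, hM⟩ hpk hrk hpr
        have h2 := npB a n r p ha (by omega) hr hp ⟨M, hM⟩ hpd hrk hpk (Ne.symm hpr)
        omega
  · refine ⟨1, natPhi n a, (one_mul _).symm, Or.inl rfl, ?_⟩
    intro p hp hpd
    refine ⟨hp, hpd.trans (natPhi_dvd n a ha), ?_⟩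
    intro i hi1 hin hpi
    exact hex ⟨p, hp, hpd, i, hi1, hin, hpi⟩

/-- a primitive prime divisor is `≡ 1 (mod n)`. -/
theorem IsPrim.dvd_sub_one {a n p : ℕ} (ha : 1 < a) (hn : 0 < n) (h : IsPrim a n p) : n ∣ p - 1 := by
  obtain ⟨hp, hd, hprim⟩ := h
  haveI := Fact.mk hp
  have hcast : ∀ j : ℕ, p ∣ a ^ j - 1 ↔ (a : ZMod p) ^ j = 1 := by
    intro j
    rw [← ZMod.natCast_eq_zero_iff, Nat.cast_sub (Nat.one_le_pow _ _ (by omega))]
    push_cast
    rw [sub_eq_zero]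
  have h1 : (a : ZMod p) ^ n = 1 := (hcast n).1 hd
  have hord : orderOf (a : ZMod p) = n := by
    have hdvd := orderOf_dvd_of_pow_eq_one h1
    have hpos : 0 < orderOf (a : ZMod p) := Nat.pos_of_dvd_of_pos hdvd hn
    by_contra hne
    have hlt : orderOf (a : ZMod p) < n := lt_of_le_of_ne (Nat.le_of_dvd hn hdvd) hne
    exact hprim _ hpos hlt ((hcast _).2 (pow_orderOf_eq_one _))
  have ha0 : (a : ZMod p) ≠ 0 := by
    intro h0
    rw [h0, zero_pow hn.ne'] at h1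
    exact zero_ne_one h1
  rw [← hord]
  exact orderOf_dvd_of_pow_eq_one (ZMod.pow_card_sub_one_eq_one ha0)

/-- a number all of whose prime divisors are `≡ 1 (mod n)` is `≡ 1 (mod n)`. -/
theorem modEq_one_of_primes (n : ℕ) : ∀ M : ℕ, 0 < M → (∀ p : ℕ, p.Prime → p ∣ M → n ∣ p - 1) →
    n ∣ M - 1 := by
  intro M
  induction M using Nat.strong_induction_on with
  | _ M ih =>
    intro hM hp
    by_cases h1 : M = 1
    · subst h1; simp
    · obtain ⟨p, hpp, hpM⟩ := Nat.exists_prime_and_dvd h1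
      obtain ⟨K, rfl⟩ := hpM
      have hK : 0 < K := Nat.pos_of_ne_zero (by rintro rfl; simp at hM)
      have hlt : K < p * K := by nlinarith [hpp.two_le]
      have h2 := ih K hlt hK (fun r hr hrK => hp r hr (Dvd.dvd.mul_left hrK p))
      have h3 := hp p hpp (Dvd.intro K rfl)
      obtain ⟨u, hu⟩ := h2
      obtain ⟨v, hv⟩ := h3
      have hK' : K = n * u + 1 := by omega
      have hp' : p = n * v + 1 := by have := hpp.pos; omega
      refine ⟨n * u * v + u + v, ?_⟩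
      rw [hK', hp']
      have : (n * v + 1) * (n * u + 1) = n * (n * u * v + u + v) + 1 := by ring
      rw [this]
      simp

/-- `M` with only primitive prime divisors is coprime to `a ^ i - 1`, `i < n`. -/
theorem coprime_of_primes {a n M : ℕ} (h : ∀ p : ℕ, p.Prime → p ∣ M → IsPrim a n p) (i : ℕ)
    (h1 : 1 ≤ i) (h2 : i < n) : Nat.Coprime M (a ^ i - 1) := by
  apply Nat.coprime_of_dvd
  intro k hk hkM hki
  exact (h k hk hkM).2.2 i h1 h2 hki

/-- **Reduction for S4423.** -/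
theorem exists_prim_divisor (q e : ℕ) (hq : 1 < q) (he : 3 ≤ e) (hbig : 2 * e ^ 2 + e < natPhi e q) :
    ∃ m : ℕ, m ∣ q ^ e - 1 ∧ (∀ i : ℕ, 1 ≤ i → i < e → Nat.Coprime m (q ^ i - 1)) ∧
      3 * e + 1 ≤ m := by
  obtain ⟨f, M, hfM, hf, hM⟩ := decomp q e hq he
  have hfe : f ≤ e := by
    rcases hf with rfl | ⟨-, hd⟩
    · omega
    · exact Nat.le_of_dvd (by omega) hd
  have hMpos : 0 < M := Nat.pos_of_ne_zero (by rintro rfl; simp at hfM; omega)
  have hMbig : 2 * e + 1 < M := by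
    by_contra hcon
    have : f * M ≤ e * (2 * e + 1) := Nat.mul_le_mul hfe (by omega)
    have h2 : e * (2 * e + 1) = 2 * e ^ 2 + e := by ring
    omega
  refine ⟨M, (Dvd.intro_left f hfM.symm).trans (natPhi_dvd e q hq), coprime_of_primes hM, ?_⟩
  obtain ⟨u, hu⟩ := modEq_one_of_primes e M hMpos
    (fun p hp hpM => (hM p hp hpM).dvd_sub_one hq (by omega))
  have hMu : M = e * u + 1 := by omega
  have hu3 : 3 ≤ u := by
    by_contra hcon
    have : u ≤ 2 := by omega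
    have : e * u ≤ e * 2 := Nat.mul_le_mul_left e this
    omega
  have : e * 3 ≤ e * u := Nat.mul_le_mul_left e hu3
  omega

/-- **Reduction for S3430.** -/
theorem exists_large_prim (a n : ℕ) (ha : 1 < a) (hn : 3 ≤ n) (hbig : 2 * n ^ 2 + n < natPhi n a) :
    ∃ p : ℕ, p.Prime ∧ p ∣ a ^ n - 1 ∧ (∀ i : ℕ, 1 ≤ i → i < n → ¬ p ∣ a ^ i - 1) ∧
      (n + 1 < p ∨ p ^ 2 ∣ a ^ n - 1) := by
  obtain ⟨f, M, hfM, hf, hM⟩ := decomp a n ha hn
  have hfe : f ≤ n := by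
    rcases hf with rfl | ⟨-, hd⟩
    · omega
    · exact Nat.le_of_dvd (by omega) hd
  have hMbig : n + 1 < M := by
    by_contra hcon
    have : f * M ≤ n * (n + 1) := Nat.mul_le_mul hfe (by omega)
    have h2 : n * (n + 1) = n ^ 2 + n := by ring
    have h3 : 0 ≤ n ^ 2 := Nat.zero_le _
    omega
  have hMd : M ∣ a ^ n - 1 := (Dvd.intro_left f hfM.symm).trans (natPhi_dvd n a ha)
  obtain ⟨p, hp, hpM⟩ := Nat.exists_prime_and_dvd (show M ≠ 1 by omega)
  have hpp := hM p hp hpM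
  by_cases hlarge : n + 1 < p
  · exact ⟨p, hpp.1, hpp.2.1, hpp.2.2, Or.inl hlarge⟩
  · -- `p = n + 1`
    have hpn : p = n + 1 := by
      have h1 := Nat.le_of_dvd (by have := hp.two_le; omega) (hpp.dvd_sub_one ha (by omega))
      omega
    obtain ⟨K, hK⟩ := hpM
    have hK1 : K ≠ 1 := by
      rintro rfl
      omega
    obtain ⟨p', hp', hp'K⟩ := Nat.exists_prime_and_dvd hK1
    have hp'M : p' ∣ M := hK ▸ Dvd.dvd.mul_left hp'K p
    have hpp' := hM p' hp' hp'M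
    by_cases hlarge' : n + 1 < p'
    · exact ⟨p', hpp'.1, hpp'.2.1, hpp'.2.2, Or.inl hlarge'⟩
    · have hpn' : p' = n + 1 := by
        have h1 := Nat.le_of_dvd (by have := hp'.two_le; omega) (hpp'.dvd_sub_one ha (by omega))
        omega
      refine ⟨p, hpp.1, hpp.2.1, hpp.2.2, Or.inr ?_⟩
      refine Dvd.dvd.trans ?_ hMd
      rw [hK, pow_two]
      apply Nat.mul_dvd_mul_left
      rw [hpn, ← hpn']
      exact hp'K

end Cfsg.Agent.Lib.Helper77.Feit
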