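import Cfsg.Agent.S2904

/-! # S3430/S4423 piece F3: `Φ_n(a)^2 > 2^φ(n)` -/

set_option autoImplicit false

namespace Cfsg.Agent.Lib.Helper77.Feit

open Cfsg.Agent.S2904

theorem F3_sq_ge (x : ℕ) (hx : 4 ≤ x) : x ≤ (x - 1) ^ 2 := by
  obtain ⟨y, rfl⟩ : ∃ y, x = y + 4 := ⟨x - 4, by omega⟩
  have : y + 4 - 1 = y + 3 := by omega
  rw [this]; nlinarith

theorem F3_sq_ge9 (x : ℕ) (hx : 8 ≤ x) : 9 * x ≤ 2 * (x - 1) ^ 2 := by
  obtain ⟨y, rfl⟩ : ∃ y, x = y + 8 := ⟨x - 8, by omega⟩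
  have : y + 8 - 1 = y + 7 := by omega
  rw [this]; nlinarith

theorem F3_nine (r : ℕ) (hr3 : 3 ≤ r) : 9 * 2 ^ (r - 1) ≤ (2 ^ r - 1) ^ 2 := by
  have hx : 8 ≤ 2 ^ r := by
    calc 8 = 2 ^ 3 := by norm_num
      _ ≤ 2 ^ r := Nat.pow_le_pow_right (by norm_num) hr3
  have h := F3_sq_ge9 _ hx
  have e : 2 ^ r = 2 * 2 ^ (r - 1) := by
    rw [← pow_succ']; congr 1; omega
  generalize (2 ^ r - 1) ^ 2 = Q at *
  omega

theorem F3_case1 (m r : ℕ) (hr : r.Prime) (hdvd : r ∣ m) (hm : 0 < m) :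
    2 ^ (m * r).totient < natPhi (m * r) 2 ^ 2 := by
  have hm1 : 1 < m := lt_of_lt_of_le hr.one_lt (Nat.le_of_dvd hm hdvd)
  have hx : 4 ≤ 2 ^ r := by
    calc 4 = 2 ^ 2 := by norm_num
      _ ≤ 2 ^ r := Nat.pow_le_pow_right (by norm_num) hr.two_le
  rw [natPhi_expand_of_dvd m 2 r hr hdvd, mul_comm m r, Nat.totient_mul_of_prime_of_dvd hr hdvd]
  have h1 := lt_natPhi m (2 ^ r) hm1 (by omega)
  calc 2 ^ (r * m.totient) = (2 ^ r) ^ m.totient := pow_mul _ _ _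
    _ ≤ ((2 ^ r - 1) ^ 2) ^ m.totient := Nat.pow_le_pow_left (F3_sq_ge _ hx) _
    _ = ((2 ^ r - 1) ^ m.totient) ^ 2 := by rw [← pow_mul, ← pow_mul, mul_comm]
    _ < natPhi m (2 ^ r) ^ 2 := Nat.pow_lt_pow_left h1 (by norm_num)

theorem F3_case2 (m r : ℕ) (hr : r.Prime) (hr3 : 3 ≤ r) (hdvd : ¬ r ∣ m) (hm : 1 < m) :
    2 ^ (m * r).totient < natPhi (m * r) 2 ^ 2 := by
  have hx : 8 ≤ 2 ^ r := by
    calc 8 = 2 ^ 3 := by norm_num
      _ ≤ 2 ^ r := Nat.pow_le_pow_right (by norm_num) hr3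
  have h0 := natPhi_expand_of_not_dvd m 2 r hr hdvd
  have h1 := lt_natPhi m (2 ^ r) hm (by omega)
  have h2 := natPhi_le m 2 (by norm_num)
  have et : (m * r).totient = (r - 1) * m.totient := by
    rw [mul_comm m r, Nat.totient_mul_of_prime_of_not_dvd hr hdvd]
  rw [et]
  have h9 := F3_nine r hr3
  have key : 9 ^ m.totient * 2 ^ ((r - 1) * m.totient) < 9 ^ m.totient * natPhi (m * r) 2 ^ 2 := by
    calc 9 ^ m.totient * 2 ^ ((r - 1) * m.totient) = (9 * 2 ^ (r - 1)) ^ m.totient := by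
          rw [mul_pow, ← pow_mul]
      _ ≤ ((2 ^ r - 1) ^ 2) ^ m.totient := Nat.pow_le_pow_left h9 _
      _ = ((2 ^ r - 1) ^ m.totient) ^ 2 := by rw [← pow_mul, ← pow_mul, mul_comm]
      _ < natPhi m (2 ^ r) ^ 2 := Nat.pow_lt_pow_left h1 (by norm_num)
      _ = natPhi m 2 ^ 2 * natPhi (m * r) 2 ^ 2 := by rw [h0]; ring
      _ ≤ ((2 + 1) ^ m.totient) ^ 2 * natPhi (m * r) 2 ^ 2 :=
          Nat.mul_le_mul_right _ (Nat.pow_le_pow_left h2 2)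
      _ = 9 ^ m.totient * natPhi (m * r) 2 ^ 2 := by
          rw [← pow_mul, mul_comm m.totient 2, pow_mul]; norm_num
  exact Nat.lt_of_mul_lt_mul_left key

theorem F3_natPhi_one (x : ℕ) (hx : 1 ≤ x) : natPhi 1 x = x - 1 := by
  unfold natPhi
  rw [Polynomial.cyclotomic_one]
  simp only [Polynomial.eval_sub, Polynomial.eval_X, Polynomial.eval_one]
  omega

theorem F3_case3 (r : ℕ) (hr : r.Prime) (hr3 : 3 ≤ r) :
    2 ^ (1 * r).totient < natPhi (1 * r) 2 ^ 2 := by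
  have h0 := natPhi_expand_of_not_dvd 1 2 r hr (by
    intro h
    exact hr.one_lt.ne' (Nat.dvd_one.1 h))
  rw [F3_natPhi_one _ Nat.one_le_two_pow, F3_natPhi_one 2 (by norm_num)] at h0
  have h0' : natPhi (1 * r) 2 = 2 ^ r - 1 := by
    rw [h0]; norm_num
  rw [h0', one_mul, Nat.totient_prime hr]
  have h9 := F3_nine r hr3
  have hpos : 0 < 2 ^ (r - 1) := by positivity
  omega

theorem F3_odd_prime (n : ℕ) (hn : 3 ≤ n) (h4 : ¬ 4 ∣ n) : ∃ r : ℕ, r.Prime ∧ 3 ≤ r ∧ r ∣ n := by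
  have aux : ∀ c : ℕ, 2 ≤ c → ¬ 2 ∣ c → ∃ r : ℕ, r.Prime ∧ 3 ≤ r ∧ r ∣ c := by
    intro c hc2 hc
    have hp := Nat.minFac_prime (n := c) (by omega)
    refine ⟨c.minFac, hp, ?_, Nat.minFac_dvd c⟩
    rcases hp.two_le.eq_or_lt with h | h
    · exact absurd (h ▸ Nat.minFac_dvd c) hc
    · exact h
  by_cases h2 : 2 ∣ n
  · obtain ⟨c, rfl⟩ := h2
    have hc : ¬ 2 ∣ c := fun ⟨d, hd⟩ => h4 ⟨d, by rw [hd]; ring⟩
    obtain ⟨r, hr, hr3, hd⟩ := aux c (by omega) hc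
    exact ⟨r, hr, hr3, hd.mul_left 2⟩
  · exact aux n (by omega) h2

theorem two_pow_totient_lt_sq (n a : ℕ) (hn : 3 ≤ n) (ha : 2 ≤ a) :
    2 ^ n.totient < natPhi n a ^ 2 := by
  rcases Nat.lt_or_ge 2 a with ha3 | ha2
  · have h1 := lt_natPhi n a (by omega) (by omega)
    have h2 : 2 ^ n.totient ≤ (a - 1) ^ n.totient := Nat.pow_le_pow_left (by omega) _
    have h3 : natPhi n a ≤ natPhi n a ^ 2 := Nat.le_self_pow (by norm_num) _
    omega
  · obtain rfl : a = 2 := by omega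
    by_cases h4 : 4 ∣ n
    · obtain ⟨k, rfl⟩ := h4
      have e : 4 * k = (2 * k) * 2 := by ring
      rw [e]
      exact F3_case1 (2 * k) 2 Nat.prime_two (Dvd.intro _ rfl) (by omega)
    · obtain ⟨r, hr, hr3, m, hm⟩ := F3_odd_prime n hn h4
      rw [mul_comm] at hm
      subst hm
      by_cases hd : r ∣ m
      · exact F3_case1 m r hr hd (Nat.pos_of_ne_zero (by rintro rfl; simp at hn))
      · rcases Nat.lt_or_ge 1 m with hm | hm
        · exact F3_case2 m r hr hr3 hd hm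
        · have hm1 : m = 1 := by
            have : m ≠ 0 := by rintro rfl; simp at hn
            omega
          subst hm1
          exact F3_case3 r hr hr3

end Cfsg.Agent.Lib.Helper77.Feit
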