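import Cfsg.Agent.Lib.Helper77.Feit.Chk
import Cfsg.Agent.Lib.Helper77.Feit.F2
import Cfsg.Agent.Lib.Helper77.Feit.F3

/-! # S3430/S4423: `2 n^2 + n < Φ_n(a)` outside the special pairs -/

set_option autoImplicit false

namespace Cfsg.Agent.Lib.Helper77.Feit

open Cfsg.Agent.S2904

theorem big_all (n a : ℕ) (hn : 3 ≤ n) (ha : 2 ≤ a) (hsp : (a, n) ∉ special) :
    2 * n ^ 2 + n < natPhi n a := by
  by_cases h90 : n ≤ 90
  · exact big_small n a hn h90 ha hsp
  · have h1 : (2 * n ^ 2 + n) ^ 2 ≤ 2 ^ n.totient := by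
      by_cases h516 : n ≤ 516
      · exact X_sq_le_mid n (by omega) h516
      · exact X_sq_le_of_large n (by omega)
    have h2 := two_pow_totient_lt_sq n a hn ha
    exact lt_of_pow_lt_pow_left₀ 2 (Nat.zero_le _) (lt_of_le_of_lt h1 h2)

end Cfsg.Agent.Lib.Helper77.Feit
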